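import Mathlib.FieldTheory.Finite.Basic
import Mathlib.Algebra.CharP.Lemmas
import Mathlib.Algebra.Polynomial.Roots
import Mathlib.Tactic

/-!
In a field with `3 ^ n` elements, `n ≥ 3`, the curve `z + z⁻¹ = t ^ 3 - t` has a point with `z ≠ ± 1`.
-/

set_option autoImplicit false

namespace CL.BG.K3x
open Finset Polynomial

variable {F : Type*} [Field F] [Fintype F] {n : ℕ}

theorem char3 (hn : 3 ≤ n) (hF : Fintype.card F = 3 ^ n) : CharP F 3 := by
  have h := FiniteField.cast_card_eq_zero F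
  rw [hF, Nat.cast_pow] at h
  have h3 : ((3 : ℕ) : F) = 0 := (pow_eq_zero_iff (by omega)).1 h
  have : Fact (Nat.Prime 3) := ⟨Nat.prime_three⟩
  exact (CharP.charP_iff_prime_eq_zero Nat.prime_three).2 h3

/-- the absolute trace -/
def tr (n : ℕ) (x : F) : F := ∑ i ∈ range n, x ^ 3 ^ i

theorem tr_cube [CharP F 3] (hF : Fintype.card F = 3 ^ n) (x : F) : tr n x ^ 3 = tr n x := by
  have : Fact (Nat.Prime 3) := ⟨Nat.prime_three⟩
  have h1 : tr n x ^ 3 = ∑ i ∈ range n, x ^ 3 ^ (i + 1) := by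
    rw [tr, sum_pow_char]
    exact sum_congr rfl fun i _ => by rw [← pow_mul, ← pow_succ]
  have h2 := sum_range_succ' (fun i => x ^ 3 ^ i) n
  have h3 := sum_range_succ (fun i => x ^ 3 ^ i) n
  have h4 : x ^ 3 ^ n = x := by rw [← hF]; exact FiniteField.pow_card x
  simp only [pow_zero, pow_one, h4] at h2 h3
  rw [h1, tr]
  linear_combination h3 - h2

theorem tr_as [CharP F 3] (hF : Fintype.card F = 3 ^ n) (t : F) : tr n (t ^ 3 - t) = 0 := by
  have : Fact (Nat.Prime 3) := ⟨Nat.prime_three⟩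
  have h1 : tr n (t ^ 3 - t) = tr n t ^ 3 - tr n t := by
    rw [tr, tr, sum_pow_char, ← sum_sub_distrib]
    exact sum_congr rfl fun i _ => by rw [sub_pow_char_pow, ← pow_mul, ← pow_mul, mul_comm]
  rw [h1, tr_cube hF, sub_self]

theorem as_of_tr [CharP F 3] (hn : 3 ≤ n) (hF : Fintype.card F = 3 ^ n) {c : F} (hc : tr n c = 0) :
    ∃ t : F, c = t ^ 3 - t := by
  classical
  obtain ⟨m, rfl⟩ : ∃ m, n = m + 1 := ⟨n - 1, by omega⟩
  set A : Finset F := univ.filter fun x => tr (m + 1) x = 0 with hA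
  set B : Finset F := univ.image fun t : F => t ^ 3 - t with hB
  have hBA : B ⊆ A := by
    intro x hx
    obtain ⟨t, -, rfl⟩ := mem_image.1 hx
    exact mem_filter.2 ⟨mem_univ _, tr_as hF t⟩
  have hp : (∑ i ∈ range m, (X : F[X]) ^ 3 ^ i).degree < ((3 ^ m : ℕ) : WithBot ℕ) := by
    refine (degree_sum_le _ _).trans_lt ((Finset.sup_lt_iff (WithBot.bot_lt_coe _)).2 fun i hi => ?_)
    rw [degree_X_pow]
    exact_mod_cast Nat.pow_lt_pow_right (by norm_num) (mem_range.1 hi)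
  have hmon : (X ^ 3 ^ m + ∑ i ∈ range m, (X : F[X]) ^ 3 ^ i).Monic := monic_X_pow_add hp
  have hdeg : (X ^ 3 ^ m + ∑ i ∈ range m, (X : F[X]) ^ 3 ^ i).natDegree = 3 ^ m := by
    rw [natDegree_add_eq_left_of_degree_lt (by rwa [degree_X_pow]), natDegree_X_pow]
  have cA : #A ≤ 3 ^ m := by
    rw [← hdeg]
    refine card_le_degree_of_subset_roots fun x hx => ?_
    have hx' : tr (m + 1) x = 0 := (mem_filter.1 hx).2
    rw [mem_roots hmon.ne_zero, IsRoot.def]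
    rw [tr, sum_range_succ, add_comm] at hx'
    simpa [eval_finsetSum] using hx'
  have cB : #(univ : Finset F) ≤ 3 * #B := by
    refine card_le_mul_card_image _ 3 fun b _ => ?_
    have hq : (-(X : F[X]) - C b).degree < ((3 : ℕ) : WithBot ℕ) := by
      compute_degree!
    have hm : (X ^ 3 + (-(X : F[X]) - C b)).Monic := monic_X_pow_add hq
    have hd : (X ^ 3 + (-(X : F[X]) - C b)).natDegree = 3 := by
      rw [natDegree_add_eq_left_of_degree_lt (by rwa [degree_X_pow]), natDegree_X_pow]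
    refine le_of_le_of_eq (card_le_degree_of_subset_roots fun x hx => ?_) hd
    have hx' : x ^ 3 - x = b := (mem_filter.1 hx).2
    rw [mem_roots hm.ne_zero, IsRoot.def]
    simp only [eval_add, eval_pow, eval_X, eval_sub, eval_neg, eval_C]
    linear_combination hx'
  rw [card_univ, hF, pow_succ] at cB
  have hE : B = A := eq_of_subset_of_card_le hBA (by omega)
  have hcB : c ∈ B := hE ▸ mem_filter.2 ⟨mem_univ _, hc⟩
  obtain ⟨t, -, rfl⟩ := mem_image.1 hcB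
  exact ⟨t, rfl⟩

theorem psum [DecidableEq F] {k : ℤ} (hk : k.natAbs < Fintype.card F - 1) :
    ∑ x : Fˣ, (x : F) ^ k = if k = 0 then -1 else 0 := by
  have h := FiniteField.sum_pow_units F k.natAbs
  have h2 : (Fintype.card F - 1 ∣ k.natAbs) ↔ k = 0 := by
    constructor
    · intro hd
      exact Int.natAbs_eq_zero.1 (Nat.eq_zero_of_dvd_of_lt hd hk)
    · rintro rfl
      simp
  simp only [h2] at h
  rw [← h]
  rcases Int.natAbs_eq k with e | e
  · exact sum_congr rfl fun x _ => by rw [← zpow_natCast, ← e]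
  · rw [← Equiv.sum_comp (Equiv.inv Fˣ)]
    refine sum_congr rfl fun x _ => ?_
    rw [Equiv.inv_apply, Units.val_inv_eq_inv_val, inv_zpow', ← zpow_natCast]
    congr 1
    omega

theorem pw (i : ℕ) : (i = 0 ∧ 3 ^ i = 1) ∨ (i = 1 ∧ 3 ^ i = 3) ∨ (2 ≤ i ∧ ∃ c, 1 ≤ c ∧ 3 ^ i = 9 * c) := by
  rcases i with _ | _ | i
  · simp
  · simp
  · exact Or.inr (Or.inr ⟨by omega, 3 ^ i, Nat.one_le_pow _ _ (by norm_num), by ring⟩)

/-- the contribution of the pair `(i, j)` -/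
def dl (F : Type*) [Field F] (k : ℤ) (a b : ℕ) : F :=
  (if k + a + b = 0 then -1 else 0) + (if k + a - b = 0 then -1 else 0) +
    (if k - a + b = 0 then -1 else 0) + (if k - a - b = 0 then -1 else 0)

theorem pair [DecidableEq F] (hn : 3 ≤ n) (hF : Fintype.card F = 3 ^ n) {k : ℤ} (hk : k = 2 ∨ k = 4) {i j : ℕ}
    (hi : i < n) (hj : j < n) :
    ∑ x : Fˣ, (x : F) ^ k * (((x : F) ^ 3 ^ i + (x : F)⁻¹ ^ 3 ^ i) * ((x : F) ^ 3 ^ j + (x : F)⁻¹ ^ 3 ^ j)) =
      dl F k (3 ^ i) (3 ^ j) := by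
  obtain ⟨m, rfl⟩ : ∃ m, n = m + 1 := ⟨n - 1, by omega⟩
  have h1 : 3 ^ i ≤ 3 ^ m := Nat.pow_le_pow_right (by norm_num) (by omega)
  have h2 : 3 ^ j ≤ 3 ^ m := Nat.pow_le_pow_right (by norm_num) (by omega)
  have h3 : 3 ^ 2 ≤ 3 ^ m := Nat.pow_le_pow_right (by norm_num) (by omega)
  rw [pow_succ] at hF
  generalize 3 ^ i = a at *
  generalize 3 ^ j = b at *
  generalize 3 ^ m = q at *
  rw [dl, ← psum (F := F) (k := k + a + b) (by omega), ← psum (F := F) (k := k + a - b) (by omega),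
    ← psum (F := F) (k := k - a + b) (by omega), ← psum (F := F) (k := k - a - b) (by omega),
    ← sum_add_distrib, ← sum_add_distrib, ← sum_add_distrib]
  refine sum_congr rfl fun x _ => ?_
  have hx : (x : F) ≠ 0 := x.ne_zero
  simp only [zpow_add₀ hx, zpow_sub₀ hx, zpow_natCast, inv_pow]
  ring

omit [Fintype F] in
theorem dl_zero {k : ℤ} (hk : k = 2 ∨ k = 4) {i j : ℕ} (h : 2 ≤ i ∨ 2 ≤ j) : dl F k (3 ^ i) (3 ^ j) = 0 := by
  have hi := pw i
  have hj := pw j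
  generalize 3 ^ i = a at *
  generalize 3 ^ j = b at *
  rw [dl, if_neg, if_neg, if_neg, if_neg]
  · simp
  all_goals
    rcases hi with hi | hi | ⟨hi, c, hc, hc'⟩ <;> rcases hj with hj | hj | ⟨hj, d, hd, hd'⟩ <;> omega

theorem moment [DecidableEq F] [CharP F 3] (hn : 3 ≤ n) (hF : Fintype.card F = 3 ^ n) {k : ℤ} (hk : k = 2 ∨ k = 4) :
    ∑ x : Fˣ, (x : F) ^ k * tr n ((x : F) + (x : F)⁻¹) ^ 2 =
      dl F k 1 1 + dl F k 1 3 + (dl F k 3 1 + dl F k 3 3) := by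
  have : Fact (Nat.Prime 3) := ⟨Nat.prime_three⟩
  have h1 : ∀ x : Fˣ, (x : F) ^ k * tr n ((x : F) + (x : F)⁻¹) ^ 2 = ∑ i ∈ range n, ∑ j ∈ range n,
      (x : F) ^ k * (((x : F) ^ 3 ^ i + (x : F)⁻¹ ^ 3 ^ i) * ((x : F) ^ 3 ^ j + (x : F)⁻¹ ^ 3 ^ j)) := by
    intro x
    rw [tr, sq, sum_mul_sum]
    simp only [add_pow_char_pow, mul_sum]
  simp only [h1]
  rw [sum_comm]
  have h2 : ∀ i ∈ range n, ∑ x : Fˣ, ∑ j ∈ range n,
      (x : F) ^ k * (((x : F) ^ 3 ^ i + (x : F)⁻¹ ^ 3 ^ i) * ((x : F) ^ 3 ^ j + (x : F)⁻¹ ^ 3 ^ j)) =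
      ∑ j ∈ range 2, dl F k (3 ^ i) (3 ^ j) := by
    intro i hi
    rw [sum_comm, sum_congr rfl fun j hj => pair hn hF hk (mem_range.1 hi) (mem_range.1 hj)]
    refine (sum_subset (range_subset_range.2 (by omega)) fun j _ hj => dl_zero hk (Or.inr ?_)).symm
    exact not_lt.1 (mt mem_range.2 hj)
  rw [sum_congr rfl h2, ← sum_subset (range_subset_range.2 (show 2 ≤ n by omega))
    fun i _ hi => sum_eq_zero fun j _ => dl_zero hk (Or.inl (not_lt.1 (mt mem_range.2 hi)))]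
  simp [sum_range_succ]

theorem ex (hn : 3 ≤ n) (hF : Fintype.card F = 3 ^ n) :
    ∃ z t : F, z ≠ 0 ∧ z ^ 2 ≠ 1 ∧ z + z⁻¹ = t ^ 3 - t := by
  classical
  have := char3 hn hF
  by_contra hne
  push Not at hne
  have key : ∀ x : Fˣ, ((x : F) ^ (4 : ℤ) - (x : F) ^ (2 : ℤ)) * (1 - tr n ((x : F) + (x : F)⁻¹) ^ 2) = 0 := by
    intro x
    by_cases hx : (x : F) ^ 2 = 1
    · have : (x : F) ^ (4 : ℤ) - (x : F) ^ (2 : ℤ) = 0 := by
        simp only [zpow_ofNat]
        linear_combination (x : F) ^ 2 * hx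
      rw [this, zero_mul]
    · have h0 : tr n ((x : F) + (x : F)⁻¹) ≠ 0 := fun h0 => by
        obtain ⟨t, ht⟩ := as_of_tr hn hF h0
        exact hne x t x.ne_zero hx ht
      have hc := tr_cube hF ((x : F) + (x : F)⁻¹)
      have : 1 - tr n ((x : F) + (x : F)⁻¹) ^ 2 = 0 :=
        mul_left_cancel₀ h0 (by linear_combination -hc)
      rw [this, mul_zero]
  have hq : 3 ^ 3 ≤ 3 ^ n := Nat.pow_le_pow_right (by norm_num) hn
  have s4 := psum (F := F) (k := 4) (by rw [hF]; simp; omega)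
  have s2 := psum (F := F) (k := 2) (by rw [hF]; simp; omega)
  have m4 := moment hn hF (k := 4) (Or.inr rfl)
  have m2 := moment hn hF (k := 2) (Or.inl rfl)
  have hs : ∑ x : Fˣ, ((x : F) ^ (4 : ℤ) - (x : F) ^ (2 : ℤ)) * (1 - tr n ((x : F) + (x : F)⁻¹) ^ 2) = 0 :=
    sum_eq_zero fun x _ => key x
  simp only [sub_mul, mul_sub, mul_one, sum_sub_distrib] at hs
  rw [s4, s2, m4, m2] at hs
  simp only [dl] at hs
  norm_num at hs

end CL.BG.K3x
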