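import Mathlib

/-! The cubic `t³ - 4t` takes a value `z + z⁻¹` with `z² ≠ 1` in every finite field of characteristic at least five:
one of `-1`, `23`, `-23` is a square. -/

set_option autoImplicit false

namespace CL.BG.OddX

variable {F : Type*} [Field F]

theorem mk {z z' t : F} (h : z * z' = 1) (hne : z ≠ z') (e : z + z' = t ^ 3 - 4 * t) :
    ∃ z t : F, z ≠ 0 ∧ z ^ 2 ≠ 1 ∧ z + z⁻¹ = t ^ 3 - 4 * t := by
  have h0 : z ≠ 0 := left_ne_zero_of_mul_eq_one h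
  refine ⟨z, t, h0, fun k => hne (mul_left_cancel₀ h0 (by rw [h, ← k, sq])), ?_⟩
  rw [← eq_inv_of_mul_eq_one_right h, e]

theorem mk2 {z z' t : F} (ht : t ≠ 0) (h : z * z' = 1) (hne : z ≠ z') (e : z + z' = t ^ 3 - 4 * t) :
    ∃ z t : F, z ≠ 0 ∧ t ≠ 0 ∧ z ^ 2 ≠ 1 ∧ z + z⁻¹ = t ^ 3 - 4 * t := by
  have h0 : z ≠ 0 := left_ne_zero_of_mul_eq_one h
  refine ⟨z, t, h0, ht, fun k => hne (mul_left_cancel₀ h0 (by rw [h, ← k, sq])), ?_⟩
  rw [← eq_inv_of_mul_eq_one_right h, e]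

theorem ex2 [Finite F] (h2 : (2 : F) ≠ 0) (h3 : (3 : F) ≠ 0) :
    ∃ z t : F, z ≠ 0 ∧ t ≠ 0 ∧ z ^ 2 ≠ 1 ∧ z + z⁻¹ = t ^ 3 - 4 * t := by
  classical
  have := Fintype.ofFinite F
  by_cases h1 : IsSquare (-1 : F)
  · obtain ⟨i, hi⟩ := h1
    refine mk2 (z := i) (z' := -i) (t := 2) h2 (by linear_combination hi) (fun k => ?_) (by ring)
    have : (2 : F) * 2 = 0 := by linear_combination (-4) * hi - 2 * i * k
    exact mul_ne_zero h2 h2 this
  have h5 : (5 : F) ≠ 0 := fun k => h1 ⟨2, by linear_combination -k⟩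
  have h17 : (17 : F) ≠ 0 := fun k => h1 ⟨4, by linear_combination -k⟩
  by_cases h23 : (23 : F) = 0
  · refine mk2 (z := 16) (z' := 13) (t := 13)
      (fun k => mul_ne_zero h2 h5 (by linear_combination h23 - k)) (by linear_combination 9 * h23)
      (fun k => h3 (by linear_combination k))
      (by linear_combination (-92) * h23)
  by_cases h4 : IsSquare (23 : F)
  · obtain ⟨r, hr⟩ := h4
    refine mk2 (z := 24 + 5 * r) (z' := 24 - 5 * r) (t := 4) (fun k => mul_ne_zero h2 h2 (by linear_combination k))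
      (by linear_combination 25 * hr) (fun k => ?_) (by ring)
    have : (2 : F) * 5 * 23 = 0 := by linear_combination 10 * hr + r * k
    exact mul_ne_zero (mul_ne_zero h2 h5) h23 this
  have h6 : IsSquare (-1 * 23 : F) := by
    rw [← quadraticChar_one_iff_isSquare (mul_ne_zero (neg_ne_zero.2 one_ne_zero) h23), map_mul,
      quadraticChar_neg_one_iff_not_isSquare.2 h1, quadraticChar_neg_one_iff_not_isSquare.2 h4]
    norm_num
  obtain ⟨r, hr⟩ := h6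
  obtain ⟨u, hu⟩ : ∃ u : F, 6 * u = 1 :=
    ⟨6⁻¹, mul_inv_cancel₀ (by rw [show (6 : F) = 2 * 3 by norm_num]; exact mul_ne_zero h2 h3)⟩
  obtain ⟨v, hv⟩ : ∃ v : F, 2 * v = 1 := ⟨2⁻¹, mul_inv_cancel₀ h2⟩
  have u0 : u ≠ 0 := right_ne_zero_of_mul_eq_one hu
  have v0 : v ≠ 0 := right_ne_zero_of_mul_eq_one hv
  have hu3 : 216 * u ^ 3 = 1 := by linear_combination (36 * u ^ 2 + 6 * u + 1) * hu
  refine mk2 (z := (-143 + 85 * r) * (v * u ^ 3)) (z' := (-143 - 85 * r) * (v * u ^ 3)) (t := u) u0 ?_ (fun k => ?_) ?_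
  · linear_combination (7225 * (v * u ^ 3) ^ 2) * hr + (46656 * u ^ 6 * (2 * v + 1)) * hv + (216 * u ^ 3 + 1) * hu3
  · have k' := mul_right_cancel₀ (mul_ne_zero v0 (pow_ne_zero 3 u0)) k
    have : (2 : F) * 5 * 17 * 23 = 0 := by linear_combination (-170) * hr - r * k'
    exact mul_ne_zero (mul_ne_zero (mul_ne_zero h2 h5) h17) h23 this
  · linear_combination (-143 * u ^ 3) * hv - (4 * u * (6 * u + 1)) * hu

theorem ex [Finite F] (h2 : (2 : F) ≠ 0) (h3 : (3 : F) ≠ 0) :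
    ∃ z t : F, z ≠ 0 ∧ z ^ 2 ≠ 1 ∧ z + z⁻¹ = t ^ 3 - 4 * t := by
  obtain ⟨z, t, a, -, b, c⟩ := ex2 h2 h3
  exact ⟨z, t, a, b, c⟩

/-- The form used for prime fields. -/
theorem ex_prime [Fintype F] (hp : (Fintype.card F).Prime) (h5 : 5 ≤ Fintype.card F) :
    ∃ z t : F, z ≠ 0 ∧ t ≠ 0 ∧ z ^ 2 ≠ 1 ∧ z + z⁻¹ = t ^ 3 - 4 * t := by
  have key : ∀ n : ℕ, 0 < n → n < 5 → (n : F) ≠ 0 := fun n h0 hn k => by
    have := Fact.mk hp
    have hc : CharP F (Fintype.card F) := (charP_of_card_eq_prime rfl)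
    have := Nat.le_of_dvd h0 ((CharP.cast_eq_zero_iff F (Fintype.card F) n).1 k)
    omega
  exact ex2 (by simpa using key 2 (by norm_num) (by norm_num)) (by simpa using key 3 (by norm_num) (by norm_num))

end CL.BG.OddX
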